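import Cfsg.Agent.Lib.LR.Main
import Cfsg.Agent.Lib.Fus.Good

/-!
Simplicity of a 2-fusion system with the data `GD` and a Sylow 2-subgroup of order `2 ^ 8`.
-/

set_option autoImplicit false

namespace Cfsg.Agent.LR

open Subgroup Cfsg.Agent.MP.L3 Cfsg.Agent.MP.J3 Cfsg.FusionSystem Cfsg.Agent.Fus
open Cfsg.Agent.Fus2 (M HomOn homOn_conj)

variable {L : Type*} [Group L] [Finite L] {J T : Subgroup L} {D : H3 J F4} {s t g g₁ g₂ : L}

theorem of_sq {p : L → Prop} (h1 : p 1) (hm : ∀ a b, p a → p b → p (a * b))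
    (hg : (orderOf g).Coprime 2) (h : p (g * g)) : p g := by
  obtain ⟨m, hm'⟩ := exists_pow_eq_self_of_coprime hg.symm
  rw [← hm', pow_two]
  clear hm'
  induction m with
  | zero => simpa
  | succ m ih => exact pow_succ (g * g) m ▸ hm _ _ ih h

theorem GD.crit (h : GD D T) (hs : s ∈ T) (ht : t ∈ T) (s₁ : ∃ c, ¬ Commute s (D.f 0 0 c))
    (s₂ : s * D.f 1 0 0 * s⁻¹ ∈ D.A₁) (t₁ : t * D.f 1 0 0 * t⁻¹ ∉ D.A₁)
    (c₁ : g₁ * s * g₁⁻¹ ∈ J) (c₂ : g₂ * t * g₂⁻¹ ∈ J) : Crit 2 T ⊥ := by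
  have k := h.kd
  have a := k.amb
  have sZ : ¬ CZ D (cg s) := fun e => s₁.elim fun c hc => hc (mul_inv_eq_iff_eq_mul.1 (e c))
  have sP : Pres D (cg s) := (a.au hs).pres_of s₂
  have tP : ¬ Pres D (cg t) := fun e => t₁ (e.1 _ (by simp))
  refine ⟨isSylowIn_top_iff.2 h.syl.exists_sylow, fun e => ?_, fun P hP _ hne hc => ?_,
    fun g hg ho => Good.of_comm le_rfl ?_⟩
  · simpa [D.eq_one_iff] using e (h.le (D.f_mem 1 0 0))
  · have sc : (groupFusionSystem T).StronglyClosed P := group_sc_iff.2 ⟨hP, hc⟩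
    have A : ∀ D : H3 J F4, KD D (groupFusionSystem T) → D.A₁ ≤ P := fun D k => by
      have hZ := k.Z_le sc fun e => hne e.le
      obtain ⟨w, hw, l, e⟩ := k.w₁
      rintro _ ⟨x, c, rfl⟩
      have := hw.mem_of_sc sc (show D.f 0 0 x ∈ D.A₁ by simp) (hZ (by simp))
      rw [e] at this
      simpa [D.mul, ← add_assoc, CharTwo.add_self_eq_zero] using
        mul_mem this (hZ (show D.f 0 0 (l * (x * x) + c) ∈ D.Z by simp))
    have hJ : J ≤ P := fun y hy => by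
      obtain ⟨x, y, c, rfl⟩ := D.surj hy
      simpa [D.mul] using mul_mem (A _ k.flip (show D.f 0 y 0 ∈ D.flip.A₁ by simp))
        (A _ k (show D.f x 0 c ∈ D.A₁ by simp))
    have b : ∀ {g u}, u ∈ T → g * u * g⁻¹ ∈ J → u ∈ P := fun {g u} hu e => by
      simpa [mul_assoc] using hc _ (hJ e) g⁻¹ (by simpa [mul_assoc] using hu)
    have p : ∀ u ∈ T, Pres D (cg u) → u ∈ P := fun u hu e => by
      by_cases e' : CZ D (cg u)
      · exact hJ (a.ker u hu e' e)
      · exact (P.mul_mem_cancel_right (b hs c₁)).1 (hJ (a.ker _ (mul_mem hu hs)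
          (a.cz_mul hu hs e' sZ) (pres_mul' e sP)))
    intro u hu
    by_cases e : Pres D (cg u)
    · exact p u hu e
    · exact (P.mul_mem_cancel_right (b ht c₂)).1 (p _ (mul_mem hu ht) (a.pres_mul hu ht e tP))
  have au : ∀ {g}, g ∈ normalizer (T : Set L) → Au J (cg g) := fun {g} hg =>
    au_conj (k.mapJ D (homOn_conj J g) (fun x _ y _ e => by simpa using e)
      fun x hx => (mem_normalizer_iff.1 hg x).1 (h.le hx))
  have pr : ∀ {g}, g ∈ normalizer (T : Set L) → (orderOf g).Coprime 2 → Pres D (cg g) :=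
    fun {g} hg ho => of_sq (p := fun g => Pres D (cg g)) 
      ⟨fun x hx => by simpa [cg], fun x hx => by simpa [cg]⟩
      (fun _ _ => pres_mul') ho (((au hg).cases D).elim (fun e => pres_mul' e e)
        fun e => cg_mul g g ▸ e.comp e)
  have cz : ∀ {g u}, g ∈ normalizer (T : Set L) → CZ D (cg u) → CZ D (cg (g * u * g⁻¹)) :=
    fun {g u} hg e c => by
      obtain ⟨d, hd⟩ := D.memZ.1 ((au (Subgroup.inv_mem _ hg)).memZ (show D.f 0 0 c ∈ D.Z by simp))
      have := e d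
      rw [← hd] at this
      simpa [mul_assoc] using congrArg (cg g) this
  have gP := pr hg ho
  have gP' := pr (Subgroup.inv_mem _ hg) (by simpa using ho)
  have hq : ∀ u ∈ T, u⁻¹ * (g * u * g⁻¹) ∈ J := fun u hu => by
    have hu' := (mem_normalizer_iff.1 hg u).1 hu
    have : g * u * g⁻¹ * u ∈ J := by
      refine a.ker _ (mul_mem hu' hu) ?_ ?_
      · by_cases e : CZ D (cg u)
        · exact cz_mul' (cz hg e) e
        · exact a.cz_mul hu' hu (fun e' => e (by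
            simpa [mul_assoc] using cz (Subgroup.inv_mem _ hg) e')) e
      · by_cases e : Pres D (cg u)
        · exact pres_mul' (pres_mul' (pres_mul' gP e) gP') e
        · exact a.pres_mul hu' hu (fun e' => e (by
            simpa [mul_assoc] using pres_mul' (pres_mul' gP' e') gP)) e
    simpa [mul_assoc] using mul_mem (h.nor _ (Subgroup.inv_mem _ hu) _ this)
      (Subgroup.inv_mem _ (a.sq_mem hu))
  obtain ⟨x, y, z, hj⟩ := D.surj (hq s hs)
  have eq : ∀ v, cg g (cg s v) = cg s (cg (D.f x y z) (cg g v)) := fun v => by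
    simp [← hj, mul_assoc]
  obtain ⟨m, hm, es⟩ := (a.cz_or hs).resolve_left sZ
  have gZ : CZ D (cg g) := by
    obtain ⟨n, hn, e | e⟩ := (au hg).zf D
    · have := eq (D.f 0 0 1)
      simp only [cg, es, e, D.conj, D.eq_iff] at this
      intro c
      rw [e, (by decide : ∀ m n : F4, m ≠ 0 → n ≠ 0 → n * (m * (1 * 1)) =
        m * (n * n) → n = 1) m n hm hn (by simpa using this.2.2), one_mul]
    · refine of_sq (p := fun g => CZ D (cg g)) (fun c => by simp [cg]) (fun _ _ => cz_mul') ho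
        fun c => ?_
      rw [cg_mul]
      simp only [e]
      rw [(by decide : ∀ n c : F4, n ≠ 0 → n * (n * (c * c) * (n * (c * c))) = c) n c hn]
  obtain ⟨l, hl, el⟩ := bil_cent D (au hg).hom gP.1 gP.2 gZ
  obtain ⟨A, B, e₁, e₂⟩ := bil D (a.au hs).hom sP.1 sP.2 es
  obtain rfl : l = 1 := by
    have := eq (D.f 1 0 0)
    obtain ⟨c, h1⟩ := e₁ 1 0 0
    obtain ⟨d, h2⟩ := el (A 1) (B 0) c
    obtain ⟨c', h3⟩ := el 1 0 0
    rw [h1, h2, h3, cg, cg, D.conj] at this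
    obtain ⟨d', h4⟩ := e₁ (l * 1) (l * l * 0) (c' + x * (l * l * 0) + l * 1 * y)
    have h5 := e₂ (l * 1) 1
    rw [← (D.inj (this.trans h4)).1, mul_assoc, e₂] at h5
    exact (by decide : ∀ l m : F4, l ≠ 0 → m ≠ 0 → l * (m * (1 * 1 * (1 * 1))) =
      m * (l * 1 * 1 * (l * 1 * 1)) → l = 1) l m hl hm h5
  have hJ : ∀ q ∈ J, g * q = q * g := fun q hq => by
    refine comm_of_chain ho (a.two.to_le (D.leZ.trans h.le)) (fun q hq => ?_) ?_
    · obtain ⟨c, rfl⟩ := D.memZ.1 hq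
      exact mul_inv_eq_iff_eq_mul.1 (gZ c)
    · obtain ⟨x, y, z, rfl⟩ := D.surj hq
      obtain ⟨c, e⟩ := el x y z
      rw [show g * _ * g⁻¹ = _ from e, D.inv, D.mul]
      simp [CharTwo.add_self_eq_zero]
  exact fun u hu => comm_of_chain ho (a.two.to_le h.le) hJ (hq u hu)

theorem GD.simple (h : GD D T) (hs : s ∈ T) (ht : t ∈ T) (s₁ : ∃ c, ¬ Commute s (D.f 0 0 c))
    (s₂ : s * D.f 1 0 0 * s⁻¹ ∈ D.A₁) (t₁ : t * D.f 1 0 0 * t⁻¹ ∉ D.A₁)
    (c₁ : g₁ * s * g₁⁻¹ ∈ J) (c₂ : g₂ * t * g₂⁻¹ ∈ J) {G : Type*} [Group G] [Finite G]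
    (e : G ≃* L) (S : Sylow 2 G) : (groupFusionSystem (S : Subgroup G)).IsSimple 2 :=
  (h.crit hs ht s₁ s₂ t₁ c₁ c₂).isSimple_equiv e.symm S

end Cfsg.Agent.LR
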